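import Groth.Agent.Sga4B.HpullSquare
import Groth.Agent.Etrest.HpullConst
import Mathlib.GroupTheory.Perm.Cycle.Type
import Mathlib.GroupTheory.SpecificGroups.Cyclic

/-!
# Devissage of "`Hpull` is bijective in degrees `< N` and injective in degree `N`" along extensions, and from
`Z/p` to all finite constant coefficients

* `Concl i c n F`: `Hpull i F q` is bijective for `q + c + 1 < n` and injective for `q + c + 1 = n`;
* `concl_middle`: stable under extensions;
* `concl_const_zmod`: from `Z/p`, `p` prime, to `Z/m`, `m > 0`.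
-/

set_option autoImplicit false

universe w u w₁ w₂ v₁ v₂ u₁ u₂

open CategoryTheory CategoryTheory.Limits CategoryTheory.Abelian AlgebraicGeometry Opposite

namespace Groth.Agent.Sga2lef.H338.HpullDev

section Abstract

open Groth.Agent.Sga4B.ExtCmp

variable {C : Type u₁} [Category.{v₁} C] [Abelian C] [HasExt.{w₁} C]
variable {D : Type u₂} [Category.{v₂} D] [Abelian D] [HasExt.{w₂} D]
variable (Φ : C ⥤ D) [Φ.Additive] [PreservesFiniteLimits Φ] [PreservesFiniteColimits Φ]
variable {A : C} {B : D} (b : B ⟶ Φ.obj A)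
variable {S : ShortComplex C} (hS : S.ShortExact)

include hS

/-- Four lemma, surjectivity at the middle term. -/
theorem surjective_middle (n : ℕ) (h₁ : Function.Surjective (cmp Φ b S.X₁ n))
    (h₃ : Function.Surjective (cmp Φ b S.X₃ n)) (h₁' : Function.Injective (cmp Φ b S.X₁ (n + 1))) :
    Function.Surjective (cmp Φ b S.X₂ n) := by
  intro y
  obtain ⟨x₃, hx₃⟩ := h₃ (y.comp (Ext.mk₀ (Φ.map S.g)) (add_zero n))
  have h0 : cmp Φ b S.X₁ (n + 1) (x₃.comp hS.extClass rfl) = 0 := by
    have hc : (Ext.mk₀ (Φ.map S.g)).comp (hS.map_of_exact Φ).extClass (zero_add 1) = 0 :=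
      (hS.map_of_exact Φ).comp_extClass
    rw [cmp_extClass, hx₃]
    exact (Ext.comp_assoc_of_second_deg_zero y (Ext.mk₀ (Φ.map S.g)) (hS.map_of_exact Φ).extClass
      rfl).trans ((congrArg (fun t => y.comp t rfl) hc).trans (Ext.comp_zero _ _ _ _ _))
  have h1 := (injective_iff_map_eq_zero _).1 h₁' _ h0
  obtain ⟨x₂, hx₂⟩ := Ext.covariant_sequence_exact₃ A hS x₃ rfl h1
  have h2 : (y - cmp Φ b S.X₂ n x₂).comp (Ext.mk₀ (Φ.map S.g)) (add_zero n) = 0 := by
    rw [sub_eq_add_neg, Ext.add_comp, Ext.neg_comp, ← cmp_mk₀, hx₂, hx₃, add_neg_cancel]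
  obtain ⟨z, hz⟩ := Ext.covariant_sequence_exact₂ B (hS.map_of_exact Φ) (y - cmp Φ b S.X₂ n x₂) h2
  obtain ⟨x₁, hx₁⟩ := h₁ z
  refine ⟨x₂ + x₁.comp (Ext.mk₀ S.f) (add_zero n), ?_⟩
  have h3 : cmp Φ b S.X₂ n (x₁.comp (Ext.mk₀ S.f) (add_zero n)) = y - cmp Φ b S.X₂ n x₂ := by
    rw [cmp_mk₀, hx₁]
    exact hz
  rw [map_add, h3]
  abel

/-- Four lemma, injectivity at the middle term, positive degree. -/
theorem injective_middle_succ (n : ℕ) (h₁ : Function.Injective (cmp Φ b S.X₁ (n + 1)))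
    (h₃ : Function.Injective (cmp Φ b S.X₃ (n + 1))) (h₃' : Function.Surjective (cmp Φ b S.X₃ n)) :
    Function.Injective (cmp Φ b S.X₂ (n + 1)) := by
  rw [injective_iff_map_eq_zero]
  intro x hx
  have h1 : cmp Φ b S.X₃ (n + 1) (x.comp (Ext.mk₀ S.g) (add_zero (n + 1))) = 0 := by
    rw [cmp_mk₀, hx, Ext.zero_comp]
  have h2 := (injective_iff_map_eq_zero _).1 h₃ _ h1
  obtain ⟨x₁, hx₁⟩ := Ext.covariant_sequence_exact₂ A hS x h2
  have h3 : (cmp Φ b S.X₁ (n + 1) x₁).comp (Ext.mk₀ (Φ.map S.f)) (add_zero (n + 1)) = 0 := by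
    rw [← cmp_mk₀, hx₁, hx]
  obtain ⟨z, hz⟩ := Ext.covariant_sequence_exact₁ B (hS.map_of_exact Φ) (cmp Φ b S.X₁ (n + 1) x₁) h3
    (n₀ := n) rfl
  obtain ⟨x₃, hx₃⟩ := h₃' z
  have h4 : x₃.comp hS.extClass rfl = x₁ := by
    apply h₁
    rw [cmp_extClass, hx₃]
    exact hz
  rw [← hx₁, ← h4, Ext.comp_assoc_of_third_deg_zero, hS.extClass_comp, Ext.comp_zero]

/-- Four lemma, injectivity at the middle term, degree zero. -/
theorem injective_middle_zero (h₁ : Function.Injective (cmp Φ b S.X₁ 0))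
    (h₃ : Function.Injective (cmp Φ b S.X₃ 0)) : Function.Injective (cmp Φ b S.X₂ 0) := by
  rw [injective_iff_map_eq_zero]
  intro x hx
  have h1 : cmp Φ b S.X₃ 0 (x.comp (Ext.mk₀ S.g) (add_zero 0)) = 0 := by
    rw [cmp_mk₀, hx, Ext.zero_comp]
  have h2 := (injective_iff_map_eq_zero _).1 h₃ _ h1
  obtain ⟨x₁, hx₁⟩ := Ext.covariant_sequence_exact₂ A hS x h2
  have h3 : (cmp Φ b S.X₁ 0 x₁).comp (Ext.mk₀ (Φ.map S.f)) (add_zero 0) = 0 := by
    rw [← cmp_mk₀, hx₁, hx]
  have hm : Mono (Φ.map S.f) := (hS.map_of_exact Φ).mono_f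
  have h4 : cmp Φ b S.X₁ 0 x₁ = 0 :=
    (injective_iff_map_eq_zero _).1 (Ext.postcomp_mk₀_injective_of_mono B (Φ.map S.f)) _ h3
  rw [← hx₁, (injective_iff_map_eq_zero _).1 h₁ _ h4, Ext.zero_comp]

end Abstract

section Scheme

variable {X Y : Scheme.{u}} (i : Y ⟶ X) [PreservesFiniteLimits (EtCoh.pull i)]

/-- `Hpull i F q` is bijective for `q + c + 1 < n` and injective for `q + c + 1 = n`. -/
def Concl (c n : ℕ) (F : EtCoh.Ab X) : Prop :=
  (∀ q : ℕ, q + c + 1 < n → Function.Bijective (EtCore.Hpull i F q)) ∧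
    (∀ q : ℕ, q + c + 1 = n → Function.Injective (EtCore.Hpull i F q))

variable {i}

theorem Concl.injective {c n : ℕ} {F : EtCoh.Ab X} (h : Concl i c n F) {q : ℕ} (hq : q + c + 1 ≤ n) :
    Function.Injective (EtCore.Hpull i F q) := by
  rcases lt_or_eq_of_le hq with h1 | h1
  · exact (h.1 q h1).1
  · exact h.2 q h1

open Groth.Agent.Sga4B in
theorem concl_of_iso {c n : ℕ} {F G : EtCoh.Ab X} (e : F ≅ G) (h : Concl i c n F) : Concl i c n G := by
  have hi : ∀ q, Function.Injective (EtCore.Hpull i F q) → Function.Injective (EtCore.Hpull i G q) := by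
    intro q hq
    rw [HpullSquare.Hpull_eq_cmp] at hq ⊢
    exact ExtCmp.injective_of_iso (EtCoh.pull i) _ e q hq
  have hs : ∀ q, Function.Surjective (EtCore.Hpull i F q) → Function.Surjective (EtCore.Hpull i G q) := by
    intro q hq
    rw [HpullSquare.Hpull_eq_cmp] at hq ⊢
    exact ExtCmp.surjective_of_iso (EtCoh.pull i) _ e q hq
  exact ⟨fun q hq => ⟨hi q (h.1 q hq).1, hs q (h.1 q hq).2⟩, fun q hq => hi q (h.2 q hq)⟩

theorem concl_of_isZero {c n : ℕ} {F : EtCoh.Ab X} (h : IsZero F) : Concl i c n F := by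
  have h1 : ∀ q, Subsingleton (EtCoh.H X F q) := fun q =>
    AddCommGrpCat.subsingleton_of_isZero ((EtCoh.HF X q).map_isZero h)
  have h2 : ∀ q, Subsingleton (EtCoh.H Y ((EtCoh.pull i).obj F) q) := fun q =>
    AddCommGrpCat.subsingleton_of_isZero ((EtCoh.HF Y q).map_isZero ((EtCoh.pull i).map_isZero h))
  exact ⟨fun q _ => ⟨fun x y _ => (h1 q).elim x y, fun y => ⟨0, (h2 q).elim _ _⟩⟩,
    fun q _ x y _ => (h1 q).elim x y⟩

open Groth.Agent.Sga4B in
/-- The conclusion is stable under extensions. -/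
theorem concl_middle {c n : ℕ} {S : ShortComplex (EtCoh.Ab X)} (hS : S.ShortExact)
    (h1 : Concl i c n S.X₁) (h3 : Concl i c n S.X₃) : Concl i c n S.X₂ := by
  have hinj : ∀ q : ℕ, q + c + 1 ≤ n → Function.Injective (EtCore.Hpull i S.X₂ q) := by
    intro q hq
    have a1 := h1.injective hq
    have a3 := h3.injective hq
    rw [HpullSquare.Hpull_eq_cmp] at a1 a3 ⊢
    rcases q with _ | q
    · exact injective_middle_zero (EtCoh.pull i) _ hS a1 a3
    · have a3' := (h3.1 q (by omega)).2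
      rw [HpullSquare.Hpull_eq_cmp] at a3'
      exact injective_middle_succ (EtCoh.pull i) _ hS q a1 a3 a3'
  refine ⟨fun q hq => ⟨hinj q hq.le, ?_⟩, fun q hq => hinj q hq.le⟩
  have a1 := (h1.1 q hq).2
  have a3 := (h3.1 q hq).2
  have a1' := h1.injective (q := q + 1) (by omega)
  rw [HpullSquare.Hpull_eq_cmp] at a1 a3 a1' ⊢
  exact surjective_middle (EtCoh.pull i) _ hS q a1 a3 a1'

end Scheme

/-- Induction over finite abelian groups. -/
theorem finite_induction (P : AddCommGrpCat.{w} → Prop)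
    (hiso : ∀ {M M' : AddCommGrpCat.{w}}, (M ≅ M') → P M → P M')
    (hzero : ∀ M : AddCommGrpCat.{w}, IsZero M → P M)
    (hext : ∀ S : ShortComplex AddCommGrpCat.{w}, S.ShortExact → P S.X₁ → P S.X₃ → P S.X₂)
    (hp : ∀ p : ℕ, p.Prime → P (AddCommGrpCat.of (ULift.{w} (ZMod p)))) (k : ℕ) :
    ∀ (M : Type w) [AddCommGroup M] [Finite M], Nat.card M ≤ k → P (AddCommGrpCat.of M) := by
  induction k with
  | zero =>
    intro M _ _ hk
    exact absurd (Nat.card_pos (α := M)) (by omega)
  | succ k ih =>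
    intro M _ _ hk
    by_cases h1 : Nat.card M = 1
    · refine hzero _ ?_
      have : Subsingleton M := (Nat.card_eq_one_iff_unique.1 h1).1
      exact AddCommGrpCat.isZero_of_subsingleton _
    · obtain ⟨p, hpp, hpM⟩ := Nat.exists_prime_and_dvd h1
      have : Fact p.Prime := ⟨hpp⟩
      obtain ⟨x, hx⟩ := exists_prime_addOrderOf_dvd_card' (G := M) p hpM
      let H := AddSubgroup.zmultiples x
      have hH : Nat.card H = p := (Nat.card_zmultiples x).trans hx
      let S : ShortComplex AddCommGrpCat.{w} := ShortComplex.mk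
        (AddCommGrpCat.ofHom H.subtype : AddCommGrpCat.of H ⟶ AddCommGrpCat.of M)
        (AddCommGrpCat.ofHom (QuotientAddGroup.mk' H) : AddCommGrpCat.of M ⟶ AddCommGrpCat.of (M ⧸ H))
        (by
          ext y
          exact (QuotientAddGroup.eq_zero_iff (y : M)).2 y.2)
      have hS : S.ShortExact :=
        { exact := by
            rw [ShortComplex.ab_exact_iff]
            intro y hy
            exact ⟨⟨y, (QuotientAddGroup.eq_zero_iff y).1 hy⟩, rfl⟩
          mono_f := by
            rw [AddCommGrpCat.mono_iff_injective]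
            exact Subtype.val_injective
          epi_g := by
            rw [AddCommGrpCat.epi_iff_surjective]
            exact QuotientAddGroup.mk'_surjective H }
      refine hext S hS ?_ ?_
      · have e : H ≃+ ZMod p := addEquivOfAddCyclicCardEq (by rw [hH, Nat.card_zmod])
        exact hiso (AddEquiv.toAddCommGrpIso (X := AddCommGrpCat.of (ULift.{w} (ZMod p)))
          (Y := AddCommGrpCat.of H) (AddEquiv.ulift.trans e.symm)) (hp p hpp)
      · refine ih (M ⧸ H) ?_
        have h2 := AddSubgroup.card_eq_card_quotient_mul_card_addSubgroup H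
        rw [hH] at h2
        have h3 : 0 < Nat.card (M ⧸ H) := Nat.card_pos
        have h4 := hpp.two_le
        nlinarith

section Const

variable {X Y : Scheme.{u}} {i : Y ⟶ X} [PreservesFiniteLimits (EtCoh.pull i)]

open Groth.Agent.Etrest.HpullConst in
/-- From `Z/p`, `p` prime, to `Z/m`, `m > 0`. -/
theorem concl_const_zmod {c n : ℕ} (h : ∀ p : ℕ, p.Prime → Concl i c n (EtCoh.const X (ZMod p)))
    (m : ℕ) (hm : 0 < m) : Concl i c n (EtCoh.const X (ZMod m)) := by
  have : NeZero m := ⟨hm.ne'⟩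
  have hl : PreservesFiniteLimits (constU X) := by
    unfold constU constantSheaf
    infer_instance
  have hr : PreservesFiniteColimits (constU X) := by
    have : PreservesColimitsOfSize.{0, 0} (constU X) :=
      ((constantSheafAdj X.smallEtaleTopology AddCommGrpCat.{u + 1}
        (EtCore.topIsTerminal X))).leftAdjoint_preservesColimits
    exact PreservesColimitsOfSize.preservesFiniteColimits _
  exact finite_induction (fun M => Concl i c n ((constU X).obj M))
    (fun e he => concl_of_iso ((constU X).mapIso e) he)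
    (fun M hM => concl_of_isZero ((constU X).map_isZero hM))
    (fun S hS h1 h3 => concl_middle (hS.map_of_exact (constU X)) h1 h3)
    h (Nat.card (ULift.{u + 1} (ZMod m))) (ULift.{u + 1} (ZMod m)) le_rfl

end Const

end Groth.Agent.Sga2lef.H338.HpullDev
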